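import Cfsg.Agent.Lib.Helper69.FB.Defs

set_option autoImplicit false

namespace Cfsg.Agent.Lib.Helper69.FB

theorem F_mul_le {a b : ℕ} (ha : Odd a) (hb : Odd b) : F a * F b ≤ F (a * b) := by
  obtain ⟨i, rfl⟩ := ha
  obtain ⟨j, rfl⟩ := hb
  rcases Nat.eq_zero_or_pos i with rfl | hi
  · simp [F]
  rcases Nat.eq_zero_or_pos j with rfl | hj
  · simp [F]
  have hab1 : (2 * i + 1) * (2 * j + 1) ≠ 1 := by nlinarith
  have hab3 : (2 * i + 1) * (2 * j + 1) ≠ 3 := by nlinarith
  have hF : F ((2 * i + 1) * (2 * j + 1)) = 2 * i * j + i + j := by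
    unfold F
    rw [if_neg hab1, if_neg hab3]
    have : (2 * i + 1) * (2 * j + 1) - 1 = 2 * (2 * i * j + i + j) := by
      have : (2 * i + 1) * (2 * j + 1) = 2 * (2 * i * j + i + j) + 1 := by ring
      omega
    rw [this]; omega
  have hFa : ∀ k : ℕ, 0 < k → F (2 * k + 1) ≤ k + 1 ∧ (2 ≤ k → F (2 * k + 1) = k) := by
    intro k hk
    unfold F
    constructor
    · split_ifs <;> omega
    · intro h2
      rw [if_neg (by omega), if_neg (by omega)]
      omega
  rw [hF]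
  by_cases hi2 : 2 ≤ i
  · rw [(hFa i hi).2 hi2]
    have := (hFa j hj).1
    calc i * F (2 * j + 1) ≤ i * (j + 1) := Nat.mul_le_mul_left _ this
      _ ≤ 2 * i * j + i + j := by nlinarith
  · have hi1 : i = 1 := by omega
    subst hi1
    by_cases hj2 : 2 ≤ j
    · rw [(hFa j hj).2 hj2]
      have := (hFa 1 hi).1
      calc F (2 * 1 + 1) * j ≤ (1 + 1) * j := Nat.mul_le_mul_right _ this
        _ ≤ 2 * 1 * j + 1 + j := by omega
    · have hj1 : j = 1 := by omega
      subst hj1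
      simp [F]

theorem two_mul_F_sq_le {m : ℕ} (hm : Odd m) (h5 : 5 ≤ m) : F m * F m * 2 ≤ F (m * m) := by
  obtain ⟨i, rfl⟩ := hm
  have hi : 2 ≤ i := by omega
  have h1 : F (2 * i + 1) = i := by
    unfold F
    rw [if_neg (by omega), if_neg (by omega)]
    omega
  have h2 : F ((2 * i + 1) * (2 * i + 1)) = 2 * i * i + i + i := by
    unfold F
    rw [if_neg (by nlinarith), if_neg (by nlinarith)]
    have : (2 * i + 1) * (2 * i + 1) = 2 * (2 * i * i + i + i) + 1 := by ring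
    omega
  rw [h1, h2]
  nlinarith

theorem four_le_F {n : ℕ} (h : 9 ≤ n) : 4 ≤ F n := by
  unfold F
  rw [if_neg (by omega), if_neg (by omega)]
  omega

theorem two_le_F {n : ℕ} (hn : Odd n) (h : n ≠ 1) : 2 ≤ F n := by
  obtain ⟨i, rfl⟩ := hn
  unfold F
  split_ifs <;> omega

theorem F_le_pred {n : ℕ} (hn : Odd n) (h : n ≠ 1) : F n ≤ n - 1 := by
  obtain ⟨i, rfl⟩ := hn
  unfold F
  split_ifs <;> omega

end Cfsg.Agent.Lib.Helper69.FB
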