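import Cfsg.Agent.Lib.Helper69.FB.Defs

set_option autoImplicit false

namespace Cfsg.Agent.Lib.Helper69.FB

theorem hh_le_mul {P : Type*} [Group P] [Finite P] (K : Subgroup P) [K.Normal] :
    hh P ≤ hh K * hh (P ⧸ K) := by
  have f1 := finite_hom P
  have f2 := finite_hom K
  have f3 := finite_hom (P ⧸ K)
  let r : (P →* ℤˣ) →* (K →* ℤˣ) :=
    MonoidHom.mk' (fun χ => χ.comp K.subtype) (fun a b => by
      apply MonoidHom.ext
      intro x
      rfl)
  have h1 : Nat.card r.ker * r.ker.index = Nat.card (P →* ℤˣ) := r.ker.card_mul_index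
  have h2 : r.ker.index ≤ Nat.card (K →* ℤˣ) := by
    rw [Subgroup.index_ker]
    exact Nat.card_le_card_of_injective _ (Subtype.val_injective)
  have hker : ∀ χ : r.ker, K ≤ (χ : P →* ℤˣ).ker := by
    intro χ x hx
    have h := DFunLike.congr_fun (MonoidHom.mem_ker.mp χ.2) ⟨x, hx⟩
    exact h
  have h3 : Nat.card r.ker ≤ Nat.card (P ⧸ K →* ℤˣ) := by
    refine Nat.card_le_card_of_injective (fun χ : r.ker => QuotientGroup.lift K (χ : P →* ℤˣ) (hker χ)) ?_
    intro χ ψ hχ
    apply Subtype.ext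
    apply MonoidHom.ext
    intro x
    exact DFunLike.congr_fun hχ (QuotientGroup.mk x)
  unfold hh
  rw [← h1, mul_comm]
  exact Nat.mul_le_mul h2 h3

end Cfsg.Agent.Lib.Helper69.FB
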