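import Cfsg.Agent.Lib.Helper69.FB.Defs
import Cfsg.Agent.Lib.Helper69.FB.H1

set_option autoImplicit false

namespace Cfsg.Agent.Lib.Helper69.FB

universe u v

theorem dec {P : Type u} [Group P] [Finite P] {N : Type v} [CommGroup N] [Finite N]
    (φ : P →* MulAut N) (hφ : Function.Injective φ) (hP : IsPGroup 2 P) (N1 N2 : Subgroup N)
    (h1 : ∀ g x, x ∈ N1 → φ g x ∈ N1) (h2 : ∀ g x, x ∈ N2 → φ g x ∈ N2) (hsup : N1 ⊔ N2 = ⊤)
    (b1 : Bd.{u} N1) (b2 : Bd.{u} N2) : hh P ≤ F (Nat.card N1) * F (Nat.card N2) := by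
  obtain ⟨K, hK⟩ : ∃ K : Subgroup P, K = (resHom φ N1 h1).ker := ⟨_, rfl⟩
  have hKn : K.Normal := by rw [hK]; infer_instance
  have e1 : hh (P ⧸ K) ≤ F (Nat.card N1) := by
    subst hK
    exact b1 (P ⧸ (resHom φ N1 h1).ker) (QuotientGroup.kerLift _) (QuotientGroup.kerLift_injective _)
      (hP.to_quotient _)
  have e2 : hh K ≤ F (Nat.card N2) := by
    apply b2 K ((resHom φ N2 h2).comp K.subtype) _ (hP.to_subgroup K)
    rw [injective_iff_map_eq_one]
    intro k hk
    have hk1 : resHom φ N1 h1 (k : P) = 1 := by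
      have hle : K ≤ (resHom φ N1 h1).ker := hK.le
      exact hle k.2
    have hk2 : resHom φ N2 h2 (k : P) = 1 := hk
    have hle : N1 ⊔ N2 ≤ fixS (φ (k : P)) := by
      rw [sup_le_iff]
      constructor
      · intro x hx
        have := DFunLike.congr_fun hk1 ⟨x, hx⟩
        exact congrArg Subtype.val this
      · intro x hx
        have := DFunLike.congr_fun hk2 ⟨x, hx⟩
        exact congrArg Subtype.val this
    rw [hsup] at hle
    have h1' : φ (k : P) = 1 := by
      ext x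
      exact hle (Subgroup.mem_top x)
    have : (k : P) = 1 := hφ (by rw [h1', map_one])
    exact Subtype.ext this
  calc hh P ≤ hh K * hh (P ⧸ K) := hh_le_mul K
    _ ≤ F (Nat.card N2) * F (Nat.card N1) := Nat.mul_le_mul e2 e1
    _ = _ := mul_comm _ _

end Cfsg.Agent.Lib.Helper69.FB
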