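import Cfsg.Agent.Lib.Helper69.FB.Defs

set_option autoImplicit false

namespace Cfsg.Agent.Lib.Helper69.FB

universe v

open scoped Pointwise

set_option linter.unusedSectionVars false

variable {N : Type v} [CommGroup N] [Finite N]

theorem fixS_inf_invS (hodd : Odd (Nat.card N)) (σ : MulAut N) : fixS σ ⊓ invS σ = ⊥ := by
  rw [eq_bot_iff]
  intro x hx
  rw [Subgroup.mem_bot]
  have h1 : σ x = x := hx.1
  have h2 : σ x = x⁻¹ := hx.2
  have h3 : x ^ 2 = 1 := by
    rw [sq]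
    nth_rewrite 1 [← h1]
    rw [h2, inv_mul_cancel]
  obtain ⟨k, hk⟩ := hodd
  have h4 : x ^ (2 * k + 1) = 1 := by rw [← hk]; exact pow_card_eq_one'
  rw [pow_succ, pow_mul, h3, one_pow, one_mul] at h4
  exact h4

theorem fixS_sup_invS (hodd : Odd (Nat.card N)) (σ : MulAut N) (hσ : σ * σ = 1) :
    fixS σ ⊔ invS σ = ⊤ := by
  rw [eq_top_iff]
  intro x _
  have hσσ : ∀ y, σ (σ y) = y := by
    intro y
    rw [← MulAut.mul_apply, hσ, MulAut.one_apply]
  have h1 : x * σ x ∈ fixS σ := by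
    rw [mem_fixS, map_mul, hσσ, mul_comm]
  have h2 : x * (σ x)⁻¹ ∈ invS σ := by
    rw [mem_invS, map_mul, map_inv, hσσ, mul_inv, inv_inv, mul_comm]
  have h3 : x ^ 2 ∈ fixS σ ⊔ invS σ := by
    have : x ^ 2 = (x * σ x) * (x * (σ x)⁻¹) := by
      rw [sq, mul_mul_mul_comm, mul_inv_cancel, mul_one]
    rw [this]
    exact Subgroup.mul_mem_sup h1 h2
  obtain ⟨k, hk⟩ := hodd
  have h4 : x ^ (2 * k + 1) = 1 := by rw [← hk]; exact pow_card_eq_one'
  have h5 : x = (x ^ 2) ^ (k + 1) := by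
    rw [← pow_mul, show 2 * (k + 1) = (2 * k + 1) + 1 by ring, pow_succ, h4, one_mul]
  rw [h5]
  exact Subgroup.pow_mem _ h3 _

theorem card_fixS_mul_card_invS (hodd : Odd (Nat.card N)) (σ : MulAut N) (hσ : σ * σ = 1) :
    Nat.card (fixS σ) * Nat.card (invS σ) = Nat.card N := by
  have h1 : Disjoint (fixS σ) (invS σ) := disjoint_iff.mpr (fixS_inf_invS hodd σ)
  have h2 : ((fixS σ : Set N) * (invS σ : Set N)) = Set.univ := by
    rw [← Subgroup.normal_mul, fixS_sup_invS hodd σ hσ, Subgroup.coe_top]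
  exact (Subgroup.isComplement'_of_disjoint_and_mul_eq_univ h1 h2).card_mul_card

end Cfsg.Agent.Lib.Helper69.FB
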