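import Cfsg.Agent.Lib.Helper69.FB.Defs
import Cfsg.Agent.Lib.Helper69.FB.IV
import Cfsg.Agent.Lib.Helper69.FB.DEC
import Cfsg.Agent.Lib.Helper69.FB.AR

set_option autoImplicit false

namespace Cfsg.Agent.Lib.Helper69.FB

universe u v

theorem central_case {P : Type u} [Group P] [Finite P] {N : Type v} [CommGroup N] [Finite N]
    (φ : P →* MulAut N) (hφ : Function.Injective φ) (hP : IsPGroup 2 P) (hodd : Odd (Nat.card N))
    (IH : ∀ M : Subgroup N, Nat.card M < Nat.card N → Bd.{u} M)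
    (s : P) (hs : ∀ g : P, g * s * g⁻¹ = s) (hs1 : s ≠ 1) (hs2 : s * s = 1) (hfix : fixS (φ s) ≠ ⊥) :
    hh P ≤ F (Nat.card N) := by
  have hσ : φ s * φ s = 1 := by rw [← map_mul, hs2, map_one]
  have hcomm : ∀ g : P, ∀ x : N, φ s (φ g x) = φ g (φ s x) := by
    intro g x
    have h1 : g * s = s * g := by
      calc g * s = g * s * g⁻¹ * g := by group
        _ = s * g := by rw [hs g]
    rw [← MulAut.mul_apply, ← MulAut.mul_apply, ← map_mul, ← map_mul, h1]
  have i1 : ∀ g x, x ∈ fixS (φ s) → φ g x ∈ fixS (φ s) := by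
    intro g x hx
    rw [mem_fixS] at hx ⊢
    rw [hcomm, hx]
  have i2 : ∀ g x, x ∈ invS (φ s) → φ g x ∈ invS (φ s) := by
    intro g x hx
    rw [mem_invS] at hx ⊢
    rw [hcomm, hx, map_inv]
  have hsup := fixS_sup_invS hodd (φ s) hσ
  have hmul := card_fixS_mul_card_invS hodd (φ s) hσ
  have hinv : invS (φ s) ≠ ⊥ := by
    intro hbot
    rw [hbot, sup_bot_eq] at hsup
    apply hs1
    apply hφ
    rw [map_one]
    ext x
    have : x ∈ fixS (φ s) := by rw [hsup]; exact Subgroup.mem_top x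
    exact this
  have ha1 : Nat.card (fixS (φ s)) ≠ 1 := fun h => hfix ((Subgroup.card_eq_one).1 h)
  have hb1 : Nat.card (invS (φ s)) ≠ 1 := fun h => hinv ((Subgroup.card_eq_one).1 h)
  obtain ⟨a, ha⟩ : ∃ a, a = Nat.card (fixS (φ s)) := ⟨_, rfl⟩
  obtain ⟨b, hb⟩ : ∃ b, b = Nat.card (invS (φ s)) := ⟨_, rfl⟩
  rw [← ha] at ha1 hmul
  rw [← hb] at hb1 hmul
  have hNpos : 0 < Nat.card N := Nat.card_pos
  have ha0 : 0 < a := Nat.pos_of_ne_zero (by rintro rfl; simp at hmul; omega)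
  have hb0 : 0 < b := Nat.pos_of_ne_zero (by rintro rfl; simp at hmul; omega)
  have ha2 : 2 ≤ a := by omega
  have hb2 : 2 ≤ b := by omega
  have halt : a < Nat.card N := by
    rw [← hmul]; nlinarith
  have hblt : b < Nat.card N := by
    rw [← hmul]; nlinarith
  have hoa : Odd a := by rw [← hmul] at hodd; exact Nat.Odd.of_mul_left hodd
  have hob : Odd b := by rw [← hmul] at hodd; exact Nat.Odd.of_mul_right hodd
  have h1 := dec φ hφ hP (fixS (φ s)) (invS (φ s)) i1 i2 hsup (IH _ (ha ▸ halt)) (IH _ (hb ▸ hblt))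
  rw [← ha, ← hb] at h1
  calc hh P ≤ F a * F b := h1
    _ ≤ F (a * b) := F_mul_le hoa hob
    _ = F (Nat.card N) := by rw [hmul]

end Cfsg.Agent.Lib.Helper69.FB
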