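import Cfsg.Agent.Lib.Helper69.FB.Defs
import Cfsg.Agent.Lib.Helper73.Cyc2Normal
import Cfsg.Agent.Lib.Helper25.SelfCentralizing

set_option autoImplicit false

namespace Cfsg.Agent.Lib.Helper69.FB

open Cfsg.Agent.Lib.Helper73

theorem exists_zpowers_index {P : Type*} [Group P] [Finite P] (hP : IsPGroup 2 P)
    (hn : ∀ A : Subgroup P, A.Normal → IsMulCommutative A → IsCyclic A) :
    ∃ a : P, (Subgroup.zpowers a).Normal ∧ (Subgroup.zpowers a).index ≤ 2 := by
  have : Fact (Nat.Prime 2) := ⟨Nat.prime_two⟩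
  have hnil : Group.IsNilpotent P := hP.isNilpotent
  obtain ⟨A, hAn, hAc, hCA⟩ := Cfsg.Agent.Lib.Helper25.exists_normal_abelian_selfCentralizing (R := P)
  obtain ⟨a', ha'⟩ := hn A hAn hAc
  obtain ⟨a, haA⟩ : ∃ a : P, a = a' := ⟨_, rfl⟩
  have hAeq : A = Subgroup.zpowers a := by
    apply le_antisymm
    · intro x hx
      obtain ⟨i, hi⟩ := Subgroup.mem_zpowers_iff.mp (ha' ⟨x, hx⟩)
      rw [Subgroup.mem_zpowers_iff]
      exact ⟨i, by rw [haA, ← Subgroup.coe_zpow, hi]⟩
    · rw [Subgroup.zpowers_le, haA]; exact a'.2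
  have hcent : ∀ g : P, g * a = a * g → g ∈ Subgroup.zpowers a := by
    intro g hg
    rw [← hAeq]
    apply hCA
    rw [Subgroup.mem_centralizer_iff]
    intro x hx
    rw [SetLike.mem_coe, hAeq] at hx
    obtain ⟨i, rfl⟩ := Subgroup.mem_zpowers_iff.mp hx
    exact ((Commute.zpow_right (show Commute g a from hg) i)).symm
  have hnorm : ∀ g : P, g * a * g⁻¹ ∈ Subgroup.zpowers a := by
    intro g
    rw [← hAeq]
    exact hAn.conj_mem a (by rw [hAeq]; exact Subgroup.mem_zpowers a) g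
  have hAn' : (Subgroup.zpowers a).Normal := hAeq ▸ hAn
  refine ⟨a, hAn', ?_⟩
  by_cases htop : Subgroup.zpowers a = ⊤
  · rw [htop, Subgroup.index_top]; norm_num
  obtain ⟨x₀, hx₀⟩ : ∃ x₀ : P, x₀ ∉ Subgroup.zpowers a := by
    by_contra hcon
    push Not at hcon
    exact htop (eq_top_iff.mpr fun x _ => hcon x)
  obtain ⟨m, hm'⟩ := hP.exists_orderOf_eq_pow a
  have hm2 : 2 ≤ m := by
    by_contra hcon
    have ha2 : a ^ 2 = 1 := by
      have h1 : orderOf a ∣ 2 := by
        rw [hm']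
        have : m = 0 ∨ m = 1 := by omega
        rcases this with rfl | rfl <;> norm_num
      exact orderOf_dvd_iff_pow_eq_one.mp h1
    apply hx₀
    apply hcent
    rcases eq_one_or_eq_of_mem_zpowers ha2 (hnorm x₀) with h | h
    · have : a = 1 := by
        have h1 : a = x₀⁻¹ * (x₀ * a * x₀⁻¹) * x₀ := by group
        rw [h1, h]; group
      rw [this]; simp
    · calc x₀ * a = x₀ * a * x₀⁻¹ * x₀ := by group
        _ = a * x₀ := by rw [h]
  obtain ⟨k, rfl⟩ : ∃ k, m = k + 2 := ⟨m - 2, by omega⟩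
  obtain ⟨M, hM⟩ : ∃ M, M = 2 ^ k := ⟨_, rfl⟩
  have hMpos : 0 < M := by rw [hM]; positivity
  have hoa : orderOf a = 4 * M := by rw [hm', hM]; ring
  have ha4 : a ^ (4 * M) = 1 := by rw [← hoa]; exact pow_orderOf_eq_one a
  obtain ⟨c, hcdef⟩ : ∃ c, c = a ^ (2 * M) := ⟨_, rfl⟩
  have hc2 : c * c = 1 := by rw [hcdef, ← pow_add, ← ha4]; congr 1; ring
  have hc1 : c ≠ 1 := by
    rw [hcdef]; intro h1
    have := orderOf_dvd_of_pow_eq_one h1
    rw [hoa] at this
    have := Nat.le_of_dvd (by positivity) this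
    omega
  have hcc : ∀ g : P, g * c * g⁻¹ = c := by
    intro g; rw [hcdef]
    exact conj_half a (2 * M) (by omega) (by rw [hoa]; ring) g (hnorm g)
  have hcA : c ∈ Subgroup.zpowers a := by rw [hcdef]; exact Subgroup.npow_mem_zpowers a _
  -- a normal four-group gives a contradiction
  have hfour : ∀ b : P, b ∉ Subgroup.zpowers a → b ^ 2 = 1 →
      (∀ g : P, g * b * g⁻¹ = b ∨ g * b * g⁻¹ = c * b) → False := by
    intro b hb hb2 hconj
    have hb2' : b * b = 1 := by rw [← sq]; exact hb2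
    have hcb : b * c = c * b := by
      calc b * c = b * c * b⁻¹ * b := by group
        _ = c * b := by rw [hcc b]
    have hb1 : b ≠ 1 := by rintro rfl; exact hb (one_mem _)
    have hbc : b ≠ c := by rintro rfl; exact hb hcA
    exact fourGroup_not_isCyclic c b hc2 hb2' hcb hc1 hb1 hbc
      (hn _ (fourGroup_normal c b hc2 hb2' hcb hcc hconj) (fourGroup_comm c b hc2 hb2' hcb))
  rcases cyc2_normal_core hP a k M hM hoa hnorm hcent ⟨x₀, hx₀⟩ with
    ⟨hidx, -⟩ | ⟨hM2, b, hb, hb2, hba⟩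
  · exact hidx.le
  · exfalso
    apply hfour b hb hb2
    intro g
    rw [hcdef]
    exact conj_modular a b k M hM hM2 hoa hnorm hcent hb2 hba g

end Cfsg.Agent.Lib.Helper69.FB
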