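import Cfsg.Agent.Lib.Helper69.FB.Defs

set_option autoImplicit false

namespace Cfsg.Agent.Lib.Helper69.FB

theorem hh_le_two_of_isCyclic {P : Type*} [Group P] [IsCyclic P] : hh P ≤ 2 := by
  obtain ⟨g, hg⟩ := IsCyclic.exists_generator (α := P)
  have h2 : Nat.card ℤˣ = 2 := by
    rw [Nat.card_eq_fintype_card]; rfl
  unfold hh
  rw [← h2]
  refine Nat.card_le_card_of_injective (fun f : P →* ℤˣ => f g) ?_
  intro f f' h
  apply MonoidHom.ext
  intro x
  obtain ⟨k, rfl⟩ := Subgroup.mem_zpowers_iff.mp (hg x)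
  rw [map_zpow, map_zpow]
  exact congrArg (· ^ k) h

end Cfsg.Agent.Lib.Helper69.FB
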