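import Cfsg.Agent.Lib.Helper69.FB.Defs

set_option autoImplicit false

namespace Cfsg.Agent.Lib.Helper69.FB

theorem hh_le_card {P : Type*} [Group P] [Finite P] : hh P ≤ Nat.card P := by
  classical
  have := finite_hom P
  have := Fintype.ofFinite P
  have := Fintype.ofFinite (P →* ℤˣ)
  let c : ℤˣ →* ℚ := ((Int.castRingHom ℚ : ℤ →+* ℚ) : ℤ →* ℚ).comp (Units.coeHom ℤ)
  have hc : Function.Injective c := by
    intro a b hab
    have h1 : ((a : ℤ) : ℚ) = ((b : ℤ) : ℚ) := hab
    exact Units.ext (Int.cast_injective h1)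
  let j : (P →* ℤˣ) → (P →* ℚ) := fun f => c.comp f
  have hj : Function.Injective j := by
    intro f g hfg
    apply MonoidHom.ext
    intro x
    exact hc (DFunLike.congr_fun hfg x)
  have hli := (linearIndependent_monoidHom P ℚ).comp j hj
  have h1 := hli.fintype_card_le_finrank
  rw [Module.finrank_fintype_fun_eq_card] at h1
  unfold hh
  rw [Nat.card_eq_fintype_card, Nat.card_eq_fintype_card]
  exact h1

end Cfsg.Agent.Lib.Helper69.FB
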