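import Cfsg.Agent.Lib.Helper69.FB.Defs
import Cfsg.Agent.Lib.Helper69.FB.H1
import Cfsg.Agent.Lib.Helper69.FB.H2
import Cfsg.Agent.Lib.Helper69.FB.H3

set_option autoImplicit false

namespace Cfsg.Agent.Lib.Helper69.FB

theorem hh_le_four {P : Type*} [Group P] [Finite P] (a : P) (h1 : (Subgroup.zpowers a).Normal)
    (h2 : (Subgroup.zpowers a).index ≤ 2) : hh P ≤ 4 := by
  have e1 : hh (Subgroup.zpowers a) ≤ 2 := hh_le_two_of_isCyclic
  have e2 : hh (P ⧸ Subgroup.zpowers a) ≤ 2 := by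
    refine le_trans hh_le_card ?_
    rw [← Subgroup.index_eq_card]
    exact h2
  calc hh P ≤ hh (Subgroup.zpowers a) * hh (P ⧸ Subgroup.zpowers a) := hh_le_mul _
    _ ≤ 2 * 2 := Nat.mul_le_mul e1 e2

end Cfsg.Agent.Lib.Helper69.FB
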