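import Cfsg.Agent.Lib.Helper69.FB.Defs

set_option autoImplicit false

namespace Cfsg.Agent.Lib.Helper69.FB

theorem hh_le_quot {P : Type*} [Group P] [Finite P] (K : Subgroup P) [K.Normal]
    (h : ∀ χ : P →* ℤˣ, K ≤ χ.ker) : hh P ≤ hh (P ⧸ K) := by
  have := finite_hom (P ⧸ K)
  unfold hh
  refine Nat.card_le_card_of_injective (fun χ : P →* ℤˣ => QuotientGroup.lift K χ (h χ)) ?_
  intro χ ψ hχ
  apply MonoidHom.ext
  intro x
  have := DFunLike.congr_fun hχ (QuotientGroup.mk x)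
  exact this

end Cfsg.Agent.Lib.Helper69.FB
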