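import Cfsg.Agent.Lib.Helper69.FB.Defs
import Cfsg.Agent.Lib.Helper2.PGroupFrattini

set_option autoImplicit false

namespace Cfsg.Agent.Lib.Helper69.FB

theorem hasEnough_int_two : HasEnoughRootsOfUnity ℤ 2 where
  prim := ⟨-1, by
    rw [IsPrimitiveRoot.iff_def]
    refine ⟨by norm_num, fun l hl => ?_⟩
    rcases Nat.even_or_odd l with h | h
    · exact even_iff_two_dvd.mp h
    · rw [h.neg_one_pow] at hl
      norm_num at hl⟩
  cyc := rootsOfUnity.isCyclic ℤ 2

theorem index_frattini_le_hh {P : Type*} [Group P] [Finite P] (hP : IsPGroup 2 P) :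
    (frattini P).index ≤ hh P := by
  have : Fact (Nat.Prime 2) := ⟨Nat.prime_two⟩
  have hn : (frattini P).Normal := inferInstance
  have hcomm : ∀ a b : P ⧸ frattini P, a * b = b * a := by
    intro a b
    have h : IsMulCommutative (P ⧸ frattini P) :=
      (Subgroup.Normal.quotient_commutative_iff_commutator_le).mpr
        (Cfsg.Agent.Lib.Helper2.commutator_le_frattini hP)
    exact h.is_comm.comm a b
  let _ : CommGroup (P ⧸ frattini P) := { (inferInstance : Group (P ⧸ frattini P)) with mul_comm := hcomm }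
  have hexp : Monoid.exponent (P ⧸ frattini P) ∣ 2 := by
    apply Monoid.exponent_dvd_of_forall_pow_eq_one
    intro a
    obtain ⟨x, rfl⟩ := QuotientGroup.mk'_surjective (frattini P) a
    rw [← map_pow]
    exact (QuotientGroup.eq_one_iff _).mpr (Cfsg.Agent.Lib.Helper2.pow_p_mem_frattini hP x)
  have h2 := hasEnough_int_two
  have h3 : HasEnoughRootsOfUnity ℤ (Monoid.exponent (P ⧸ frattini P)) :=
    HasEnoughRootsOfUnity.of_dvd ℤ hexp
  have h4 := CommGroup.card_monoidHom_of_hasEnoughRootsOfUnity (P ⧸ frattini P) ℤ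
  rw [Subgroup.index_eq_card, ← h4]
  have := finite_hom P
  unfold hh
  refine Nat.card_le_card_of_injective
    (fun χ : (P ⧸ frattini P) →* ℤˣ => χ.comp (QuotientGroup.mk' (frattini P))) ?_
  intro χ ψ h
  ext a
  exact congrArg Units.val (DFunLike.congr_fun h a)

end Cfsg.Agent.Lib.Helper69.FB
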