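import Cfsg.Agent.Lib.Helper69.FB.H2

set_option autoImplicit false

namespace Cfsg.Agent.Lib.Helper69.FB

universe u v

theorem hh_le_one_of_card_one {P : Type u} [Group P] {N : Type v} [CommGroup N]
    (φ : P →* MulAut N) (hφ : Function.Injective φ) (h : Nat.card N = 1) : hh P ≤ 1 := by
  have h1 : Subsingleton N := (Nat.card_eq_one_iff_unique.mp h).1
  have h2 : Subsingleton (MulAut N) := ⟨fun a b => by ext x; exact Subsingleton.elim _ _⟩
  have h3 : Subsingleton P := hφ.subsingleton
  have h4 : Subsingleton (P →* ℤˣ) := ⟨fun a b => by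
    ext x
    rw [Subsingleton.elim x 1, map_one, map_one]⟩
  unfold hh
  exact Finite.card_le_one_iff_subsingleton.mpr h4

theorem hh_le_two_of_prime {P : Type u} [Group P] {N : Type v} [CommGroup N]
    (φ : P →* MulAut N) (hφ : Function.Injective φ) (h : (Nat.card N).Prime) : hh P ≤ 2 := by
  have : Fact (Nat.card N).Prime := ⟨h⟩
  have hc : IsCyclic N := isCyclic_of_prime_card rfl
  have hP : IsCyclic P :=
    isCyclic_of_injective ((IsCyclic.mulAutMulEquiv N).toMonoidHom.comp φ)
      ((IsCyclic.mulAutMulEquiv N).injective.comp hφ)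
  exact hh_le_two_of_isCyclic

end Cfsg.Agent.Lib.Helper69.FB
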