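import Cfsg.Agent.Lib.Helper69.FB.Defs

set_option autoImplicit false

namespace Cfsg.Agent.Lib.Helper69.FB

universe u

variable {P : Type u} [Group P] [Finite P]

set_option linter.unusedSectionVars false

theorem index_centralizer_eq_two (z e t : P) (hz : z ≠ 1)
    (hconj : ∀ g : P, g * e * g⁻¹ = e ∨ g * e * g⁻¹ = e * z) (ht : t * e * t⁻¹ = e * z) :
    (Subgroup.centralizer {e} : Subgroup P).index = 2 := by
  have hmem : ∀ g : P, g ∈ (Subgroup.centralizer {e} : Subgroup P) ↔ g * e * g⁻¹ = e := by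
    intro g
    rw [Subgroup.mem_centralizer_singleton_iff, mul_inv_eq_iff_eq_mul]
  have hne : e * z ≠ e := by
    intro h
    exact hz (mul_left_cancel (h.trans (mul_one e).symm))
  have hgt : ∀ g : P, g * t * e * (g * t)⁻¹ = g * (e * z) * g⁻¹ := by
    intro g
    rw [← ht]; group
  have hinj : ∀ g : P, g * (e * z) * g⁻¹ ≠ g * e * g⁻¹ := by
    intro g h
    exact hne (mul_left_cancel (mul_right_cancel h))
  rw [Subgroup.index_eq_two_iff]
  refine ⟨t, fun b => ?_⟩
  rw [hmem, hmem, hgt]
  have h1 := hconj (b * t)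
  rw [hgt] at h1
  have h2 := hinj b
  rcases hconj b with h | h
  · right
    refine ⟨h, ?_⟩
    rw [h] at h2
    exact h2
  · left
    rw [h] at h2
    refine ⟨h1.resolve_right h2, ?_⟩
    rw [h]
    exact hne

end Cfsg.Agent.Lib.Helper69.FB
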