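import Cfsg.Agent.Lib.Helper69.FB.Defs

set_option autoImplicit false

namespace Cfsg.Agent.Lib.Helper69.FB

universe u v

variable {P : Type u} [Group P] [Finite P] {N : Type v} [CommGroup N] [Finite N]

set_option linter.unusedSectionVars false

theorem card_fixS_eq_card_invS (φ : P →* MulAut N) (z e t : P) (hz : ∀ x, φ z x = x⁻¹)
    (ht : t * e * t⁻¹ = e * z) : Nat.card (fixS (φ e)) = Nat.card (invS (φ e)) := by
  have hte : t * e = e * z * t := by
    rw [← ht, inv_mul_cancel_right]
  have key : ∀ x, φ t (φ e x) = (φ e (φ t x))⁻¹ := by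
    intro x
    rw [← MulAut.mul_apply, ← map_mul, hte, map_mul, map_mul, MulAut.mul_apply, MulAut.mul_apply, hz,
      map_inv]
  have h1 : ∀ x, x ∈ fixS (φ e) → φ t x ∈ invS (φ e) := by
    intro x hx
    rw [mem_fixS] at hx
    rw [mem_invS]
    have := key x
    rw [hx] at this
    exact (inv_eq_iff_eq_inv.mpr this).symm
  have h2 : ∀ x, x ∈ invS (φ e) → φ t x ∈ fixS (φ e) := by
    intro x hx
    rw [mem_invS] at hx
    rw [mem_fixS]
    have := key x
    rw [hx, map_inv] at this
    exact (inv_injective this).symm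
  apply le_antisymm
  · refine Nat.card_le_card_of_injective (fun x : fixS (φ e) => (⟨φ t x, h1 x x.2⟩ : invS (φ e))) ?_
    intro x y hxy
    have : φ t x = φ t y := congrArg Subtype.val hxy
    exact Subtype.ext ((φ t).injective this)
  · refine Nat.card_le_card_of_injective (fun x : invS (φ e) => (⟨φ t x, h2 x x.2⟩ : fixS (φ e))) ?_
    intro x y hxy
    have : φ t x = φ t y := congrArg Subtype.val hxy
    exact Subtype.ext ((φ t).injective this)

end Cfsg.Agent.Lib.Helper69.FB
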