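import Cfsg.Agent.Lib.Helper69.FB.IV
import Cfsg.Agent.Lib.Helper69.FB.DEC

set_option autoImplicit false

namespace Cfsg.Agent.Lib.Helper69.FB

universe u v

variable {P : Type u} [Group P] [Finite P] {N : Type v} [CommGroup N] [Finite N]

set_option linter.unusedSectionVars false

theorem comm_of_mem_centralizer (φ : P →* MulAut N) (e : P)
    (c : (Subgroup.centralizer {e} : Subgroup P)) (x : N) :
    φ e (φ c x) = φ c (φ e x) := by
  have h : (c : P) * e = e * c := Subgroup.mem_centralizer_singleton_iff.mp c.2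
  rw [← MulAut.mul_apply, ← MulAut.mul_apply, ← map_mul, ← map_mul, h]

theorem fixS_invariant (φ : P →* MulAut N) (e : P) :
    ∀ (g : (Subgroup.centralizer {e} : Subgroup P)) (x : N), x ∈ fixS (φ e) →
      (φ.comp (Subgroup.centralizer {e} : Subgroup P).subtype) g x ∈ fixS (φ e) := by
  intro g x hx
  rw [mem_fixS] at hx ⊢
  change φ e (φ g x) = φ g x
  rw [comm_of_mem_centralizer, hx]

theorem invS_invariant (φ : P →* MulAut N) (e : P) :
    ∀ (g : (Subgroup.centralizer {e} : Subgroup P)) (x : N), x ∈ invS (φ e) →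
      (φ.comp (Subgroup.centralizer {e} : Subgroup P).subtype) g x ∈ invS (φ e) := by
  intro g x hx
  rw [mem_invS] at hx ⊢
  change φ e (φ g x) = (φ g x)⁻¹
  rw [comm_of_mem_centralizer, hx, map_inv]

theorem hh_centralizer_le (φ : P →* MulAut N) (hφ : Function.Injective φ) (hP : IsPGroup 2 P)
    (hodd : Odd (Nat.card N)) (e : P) (he2 : e * e = 1)
    (b1 : Bd.{u} (fixS (φ e))) (b2 : Bd.{u} (invS (φ e))) :
    hh (Subgroup.centralizer {e} : Subgroup P) ≤ F (Nat.card (fixS (φ e))) * F (Nat.card (invS (φ e))) := by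
  have hσ : φ e * φ e = 1 := by rw [← map_mul, he2, map_one]
  exact dec (φ.comp (Subgroup.centralizer {e} : Subgroup P).subtype)
    (hφ.comp (Subgroup.subtype_injective _)) (hP.to_subgroup _) (fixS (φ e)) (invS (φ e))
    (fixS_invariant φ e) (invS_invariant φ e) (fixS_sup_invS hodd (φ e) hσ) b1 b2

end Cfsg.Agent.Lib.Helper69.FB
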