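import Cfsg.Agent.Lib.Helper69.FB.SW3

set_option autoImplicit false

namespace Cfsg.Agent.Lib.Helper69.FB

universe u v

variable {P : Type u} [Group P] [Finite P] {N : Type v} [CommGroup N] [Finite N]

set_option linter.unusedSectionVars false

theorem card_mulAut_of_card_three {M : Type*} [Group M] [Finite M] (h : Nat.card M = 3) :
    Nat.card (MulAut M) = 2 := by
  have : Fact (Nat.Prime 3) := ⟨Nat.prime_three⟩
  have hc : IsCyclic M := isCyclic_of_prime_card h
  rw [IsCyclic.card_mulAut M, h, Nat.totient_prime Nat.prime_three]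

theorem card_centralizer_le_four (φ : P →* MulAut N) (hφ : Function.Injective φ)
    (hodd : Odd (Nat.card N)) (e : P) (he2 : e * e = 1)
    (h1 : Nat.card (fixS (φ e)) = 3) (h2 : Nat.card (invS (φ e)) = 3) :
    Nat.card (Subgroup.centralizer {e} : Subgroup P) ≤ 4 := by
  have hσ : φ e * φ e = 1 := by rw [← map_mul, he2, map_one]
  have hsup := fixS_sup_invS hodd (φ e) hσ
  let ψ := φ.comp (Subgroup.centralizer {e} : Subgroup P).subtype
  let f : (Subgroup.centralizer {e} : Subgroup P) → MulAut (fixS (φ e)) × MulAut (invS (φ e)) :=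
    fun c => (resHom ψ (fixS (φ e)) (fixS_invariant φ e) c, resHom ψ (invS (φ e)) (invS_invariant φ e) c)
  have hfin1 : Finite (MulAut (fixS (φ e))) := Nat.finite_of_card_ne_zero (by
    rw [card_mulAut_of_card_three h1]; norm_num)
  have hfin2 : Finite (MulAut (invS (φ e))) := Nat.finite_of_card_ne_zero (by
    rw [card_mulAut_of_card_three h2]; norm_num)
  have hf : Function.Injective f := by
    intro c d hcd
    have e1 : resHom ψ (fixS (φ e)) (fixS_invariant φ e) c = resHom ψ (fixS (φ e)) (fixS_invariant φ e) d :=
      congrArg Prod.fst hcd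
    have e2 : resHom ψ (invS (φ e)) (invS_invariant φ e) c = resHom ψ (invS (φ e)) (invS_invariant φ e) d :=
      congrArg Prod.snd hcd
    have hle : fixS (φ e) ⊔ invS (φ e) ≤ (φ c : N →* N).eqLocus (φ d : N →* N) := by
      apply sup_le
      · intro x hx
        have := congrArg Subtype.val (DFunLike.congr_fun e1 ⟨x, hx⟩)
        exact this
      · intro x hx
        have := congrArg Subtype.val (DFunLike.congr_fun e2 ⟨x, hx⟩)
        exact this
    rw [hsup] at hle
    apply Subtype.ext
    apply hφ
    ext x
    exact hle (Subgroup.mem_top x)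
  calc Nat.card (Subgroup.centralizer {e} : Subgroup P)
      ≤ Nat.card (MulAut (fixS (φ e)) × MulAut (invS (φ e))) := Nat.card_le_card_of_injective f hf
    _ = 4 := by
      rw [Nat.card_prod, card_mulAut_of_card_three h1, card_mulAut_of_card_three h2]

end Cfsg.Agent.Lib.Helper69.FB
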