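import Cfsg.Agent.Lib.Helper69.FB.H3
import Cfsg.Agent.Lib.Helper69.FB.H4

set_option autoImplicit false

namespace Cfsg.Agent.Lib.Helper69.FB

universe u

variable {P : Type u} [Group P] [Finite P]

theorem hh_le_four_of_card_le_eight (z e t : P) (hzc : z ∈ Subgroup.center P) (hz : z ≠ 1)
    (ht : t * e * t⁻¹ = e * z) (hcard : Nat.card P ≤ 8) : hh P ≤ 4 := by
  have hn : (Subgroup.zpowers z).Normal := by
    constructor
    intro x hx g
    obtain ⟨k, rfl⟩ := Subgroup.mem_zpowers_iff.mp hx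
    have h1 : z ^ k ∈ Subgroup.center P := Subgroup.zpow_mem _ hzc k
    rw [Subgroup.mem_center_iff.mp h1 g, mul_inv_cancel_right]
    exact Subgroup.zpow_mem_zpowers z k
  have hχ : ∀ χ : P →* ℤˣ, Subgroup.zpowers z ≤ χ.ker := by
    intro χ
    rw [Subgroup.zpowers_le, MonoidHom.mem_ker]
    have h1 := congrArg χ ht
    rw [map_mul, map_mul, map_mul, map_inv, mul_comm (χ t), mul_inv_cancel_right] at h1
    exact (mul_eq_left.mp h1.symm)
  have h1 := hh_le_quot (Subgroup.zpowers z) hχ
  have h2 : hh (P ⧸ Subgroup.zpowers z) ≤ Nat.card (P ⧸ Subgroup.zpowers z) := hh_le_card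
  rw [← Subgroup.index_eq_card] at h2
  have h3 := (Subgroup.zpowers z).card_mul_index
  have h4 : 2 ≤ Nat.card (Subgroup.zpowers z) := by
    rw [Nat.card_zpowers]
    have h5 : orderOf z ≠ 1 := by
      rw [Ne, orderOf_eq_one_iff]; exact hz
    have h6 : 0 < orderOf z := orderOf_pos z
    omega
  have h7 : (Subgroup.zpowers z).index ≤ 4 := by
    by_contra hcon
    push Not at hcon
    have : 2 * 5 ≤ Nat.card (Subgroup.zpowers z) * (Subgroup.zpowers z).index := Nat.mul_le_mul h4 hcon
    omega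
  omega

end Cfsg.Agent.Lib.Helper69.FB
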