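import Cfsg.Agent.Lib.Helper69.FB.H1
import Cfsg.Agent.Lib.Helper69.FB.H2
import Cfsg.Agent.Lib.Helper69.FB.H3
import Cfsg.Agent.Lib.Helper69.FB.H4
import Cfsg.Agent.Lib.Helper69.FB.H5
import Cfsg.Agent.Lib.Helper69.FB.AR
import Cfsg.Agent.Lib.Helper69.FB.IV
import Cfsg.Agent.Lib.Helper69.FB.DEC
import Cfsg.Agent.Lib.Helper69.FB.SM
import Cfsg.Agent.Lib.Helper69.FB.CY1
import Cfsg.Agent.Lib.Helper69.FB.CY2
import Cfsg.Agent.Lib.Helper69.FB.FO
import Cfsg.Agent.Lib.Helper69.FB.CI
import Cfsg.Agent.Lib.Helper69.FB.NF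
import Cfsg.Agent.Lib.Helper69.FB.SW1
import Cfsg.Agent.Lib.Helper69.FB.SW2
import Cfsg.Agent.Lib.Helper69.FB.SW3
import Cfsg.Agent.Lib.Helper69.FB.SW4
import Cfsg.Agent.Lib.Helper69.FB.SW5

set_option autoImplicit false

namespace Cfsg.Agent.Lib.Helper69.FB

universe u v

theorem swap_case {P : Type u} [Group P] [Finite P] {N : Type v} [CommGroup N] [Finite N]
    (φ : P →* MulAut N) (hφ : Function.Injective φ) (hP : IsPGroup 2 P) (hodd : Odd (Nat.card N))
    (hN1 : Nat.card N ≠ 1)
    (IH : ∀ M : Subgroup N, Nat.card M < Nat.card N → Bd.{u} M)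
    (z e t : P) (hzc : z ∈ Subgroup.center P) (hz1 : z ≠ 1) (hz : ∀ x, φ z x = x⁻¹) (he2 : e * e = 1)
    (hconj : ∀ g : P, g * e * g⁻¹ = e ∨ g * e * g⁻¹ = e * z) (ht : t * e * t⁻¹ = e * z) :
    hh P ≤ F (Nat.card N) := by
  have hσ : φ e * φ e = 1 := by rw [← map_mul, he2, map_one]
  have hidx := index_centralizer_eq_two z e t hz1 hconj ht
  have heq := card_fixS_eq_card_invS φ z e t hz ht
  have hmul := card_fixS_mul_card_invS hodd (φ e) hσ
  obtain ⟨m, hm⟩ : ∃ m, m = Nat.card (fixS (φ e)) := ⟨_, rfl⟩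
  rw [← heq, ← hm] at hmul
  have hmodd : Odd m := by
    rw [← hmul] at hodd
    exact Nat.Odd.of_mul_left hodd
  have hm1 : m ≠ 1 := by
    rintro rfl
    exact hN1 (by rw [← hmul])
  have hm3 : 3 ≤ m := by
    obtain ⟨k, hk⟩ := hmodd
    omega
  have hlt : m < Nat.card N := by
    rw [← hmul]; nlinarith
  have b1 : Bd.{u} (fixS (φ e)) := IH _ (by rw [← hm]; exact hlt)
  have b2 : Bd.{u} (invS (φ e)) := IH _ (by rw [← heq, ← hm]; exact hlt)
  have hC := hh_centralizer_le φ hφ hP hodd e he2 b1 b2
  rw [← heq, ← hm] at hC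
  have hnorm : (Subgroup.centralizer {e} : Subgroup P).Normal := Subgroup.normal_of_index_eq_two hidx
  have h1 := hh_le_mul (Subgroup.centralizer {e} : Subgroup P)
  have h2 : hh (P ⧸ (Subgroup.centralizer {e} : Subgroup P)) ≤ 2 := by
    refine le_trans hh_le_card ?_
    rw [← Subgroup.index_eq_card, hidx]
  by_cases h5 : 5 ≤ m
  · calc hh P ≤ hh (Subgroup.centralizer {e} : Subgroup P) * hh (P ⧸ (Subgroup.centralizer {e} : Subgroup P)) := h1
      _ ≤ (F m * F m) * 2 := Nat.mul_le_mul hC h2
      _ ≤ F (m * m) := two_mul_F_sq_le hmodd h5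
      _ = F (Nat.card N) := by rw [hmul]
  · have hm3' : m = 3 := by
      obtain ⟨k, hk⟩ := hmodd
      omega
    have hc4 := card_centralizer_le_four φ hφ hodd e he2 (by rw [← hm, hm3']) (by rw [← heq, ← hm, hm3'])
    have hcard : Nat.card P ≤ 8 := by
      rw [← (Subgroup.centralizer {e} : Subgroup P).card_mul_index, hidx]
      omega
    have := hh_le_four_of_card_le_eight z e t hzc hz1 ht hcard
    refine le_trans this ?_
    apply four_le_F
    rw [← hmul, hm3']

theorem main (n : ℕ) : ∀ (N : Type v) [CommGroup N] [Finite N], Nat.card N = n → Odd n → Bd.{u} N := by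
  induction n using Nat.strong_induction_on with
  | _ n ih =>
    intro N _ _ hcard hodd P _ _ φ hφ hP
    have IH : ∀ M : Subgroup N, Nat.card M < Nat.card N → Bd.{u} M := by
      intro M hM
      refine ih (Nat.card M) (by rw [← hcard]; exact hM) M rfl ?_
      have hd := Subgroup.card_subgroup_dvd_card M
      rw [hcard] at hd
      exact Odd.of_dvd_nat hodd hd
    have hodd' : Odd (Nat.card N) := by rw [hcard]; exact hodd
    by_cases h1 : n = 1
    · have := hh_le_one_of_card_one φ hφ (by rw [hcard, h1])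
      rw [hcard, h1]
      exact this
    by_cases h9 : 9 ≤ n
    · by_cases hn : ∀ A : Subgroup P, A.Normal → IsMulCommutative A → IsCyclic A
      · obtain ⟨a, ha1, ha2⟩ := exists_zpowers_index hP hn
        refine le_trans (hh_le_four a ha1 ha2) ?_
        rw [hcard]
        exact four_le_F h9
      · push Not at hn
        obtain ⟨A, hA, hc, hnc⟩ := hn
        obtain ⟨z, e, hzc, hz1, hz2, he1, he2, hez, hconj⟩ := exists_four hP A hA hc hnc
        have hzc' : ∀ g : P, g * z * g⁻¹ = z := by
          intro g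
          rw [(Subgroup.mem_center_iff.mp hzc g), mul_inv_cancel_right]
        by_cases hfz : fixS (φ z) = ⊥
        · have hz := inverts_of_fixS_eq_bot φ hodd' z hz2 hfz
          by_cases hec : ∀ g : P, g * e * g⁻¹ = e
          · by_cases hfe : fixS (φ e) = ⊥
            · exfalso
              have he := inverts_of_fixS_eq_bot φ hodd' e he2 hfe
              apply hez
              apply hφ
              ext x
              rw [he, hz]
            · exact central_case φ hφ hP hodd' IH e hec he1 he2 hfe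
          · push Not at hec
            obtain ⟨t, ht⟩ := hec
            have ht' : t * e * t⁻¹ = e * z := (hconj t).resolve_left ht
            exact swap_case φ hφ hP hodd' (by rw [hcard]; exact h1) IH z e t hzc hz1 hz he2 hconj ht'
        · exact central_case φ hφ hP hodd' IH z hzc' hz1 hz2 hfz
    · have hp : n.Prime := by
        obtain ⟨k, hk⟩ := hodd
        have : n = 3 ∨ n = 5 ∨ n = 7 := by omega
        rcases this with rfl | rfl | rfl <;> norm_num
      have := hh_le_two_of_prime φ hφ (by rw [hcard]; exact hp)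
      refine le_trans this ?_
      rw [hcard]
      exact two_le_F hodd h1

/-- A finite 2-group acting faithfully on an abelian group of odd order `≠ 1`. -/
theorem index_frattini_le {P : Type u} [Group P] [Finite P] {N : Type v} [CommGroup N] [Finite N]
    (φ : P →* MulAut N) (hφ : Function.Injective φ) (hP : IsPGroup 2 P) (hodd : Odd (Nat.card N))
    (hN1 : Nat.card N ≠ 1) : (frattini P).index ≤ Nat.card N - 1 :=
  le_trans (index_frattini_le_hh hP)
    (le_trans (main.{u, v} (Nat.card N) N rfl hodd P φ hφ hP) (F_le_pred hodd hN1))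

end Cfsg.Agent.Lib.Helper69.FB
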