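import Cfsg.Agent.Lib.Helper69.FB.IV

set_option autoImplicit false

namespace Cfsg.Agent.Lib.Helper69.FB

universe u v

theorem inverts_of_fixS_eq_bot {P : Type u} [Group P] {N : Type v} [CommGroup N] [Finite N]
    (φ : P →* MulAut N) (hodd : Odd (Nat.card N)) (s : P) (hs2 : s * s = 1) (hfix : fixS (φ s) = ⊥) :
    ∀ x, φ s x = x⁻¹ := by
  intro x
  have h := fixS_sup_invS hodd (φ s) (by rw [← map_mul, hs2, map_one])
  rw [hfix, bot_sup_eq] at h
  have hx : x ∈ invS (φ s) := by rw [h]; trivial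
  exact hx

end Cfsg.Agent.Lib.Helper69.FB
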